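/-
Thompson factorization for `{p,q}`-groups, `{p,q} ≠ {2,3}`.
-/
import Cfsg.Agent.Lib.ZJ.SL2Free
import Cfsg.Agent.Lib.Glaub.QuadPair
import Cfsg.Agent.Lib.Core.PSolv
import Cfsg.Agent.Lib.Core.Generation
import Cfsg.Agent.Lib.Transfer.AbelianSylow
import Cfsg.Agent.S2004

set_option autoImplicit false
set_option linter.unusedSectionVars false

namespace Cfsg.Agent.Lib.Autz

open Subgroup Cfsg.Agent.Lib Cfsg.Agent.Lib.Core Cfsg.Agent.Lib.Glaub Cfsg.Agent.Lib.ZJ
open scoped Cfsg.Agent.Lib.Glaub commutatorElement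

variable {G Q : Type*} [Group G] [Finite G] [Group Q] [Finite Q] {q : ℕ} [hq : Fact q.Prime]

theorem cent_comap {V : Subgroup G} (f : G →* Q) (hk : f.ker ≤ 𝐂(V)) (X : Subgroup G) :
    V ⊓ 𝐂((X.map f).comap f) = V ⊓ 𝐂(X) := by
  rw [comap_map_eq, Core.centralizer_sup]
  exact le_antisymm (inf_le_inf_left _ inf_le_left)
    (le_inf inf_le_left (le_inf inf_le_right (inf_le_left.trans (le_centralizer_iff.mp hk))))

theorem exists_lift (f : G →* Q) (hf : Function.Surjective f) {R : Subgroup Q} (hR : IsPGroup q R) :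
    ∃ S : Subgroup G, IsPGroup q S ∧ S.map f = R := by
  obtain ⟨S, hS⟩ := exists_isSyl q (R.comap f)
  have h := hS.map f
  rw [map_comap_eq_self_of_surjective hf] at h
  exact ⟨S, hS.isPGroup, (h.eq_of_le hR h.le le_rfl).symm⟩

/-- a `q`-group, `q ≥ 5`, centralizing a subgroup of index at most four of a `2`-group -/
theorem le_cent_of_four (h5 : 5 ≤ q) {U R : Subgroup G} (hU : IsPGroup 2 U) (hR : IsPGroup q R)
    (hn : R ≤ 𝐍(U)) (h : Nat.card U ≤ 4 * Nat.card ↥(U ⊓ 𝐂(R))) : U ≤ 𝐂(R) := by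
  have h1 := Transfer.card_modEq_card_inf_centralizer hR hn
  have h2 := card_mul_relIndex (inf_le_left : U ⊓ 𝐂(R) ≤ U)
  set k := (U ⊓ 𝐂(R)).relIndex U
  set c := Nat.card ↥(U ⊓ 𝐂(R))
  have hc : 0 < c := Nat.card_pos
  have hk4 : k ≤ 4 := by
    by_contra hk
    have : c * 5 ≤ c * k := Nat.mul_le_mul_left _ (by omega)
    omega
  have hk0 : 0 < k := by
    rcases Nat.eq_zero_or_pos k with e | e
    · rw [e, mul_zero] at h2; exact absurd h2.symm Nat.card_pos.ne'
    · exact e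
  have hqc : ¬ q ∣ c := not_dvd_card_of_isPGroup (hU.to_le inf_le_left) (by omega)
  have h3 : q ∣ c * (k - 1) := by
    have : c * (k - 1) = Nat.card U - c := by
      rw [← h2, Nat.mul_sub_one]
    rw [this]
    exact (Nat.modEq_iff_dvd' (by rw [← h2]; exact Nat.le_mul_of_pos_right _ hk0)).mp h1.symm
  have h4 : q ∣ k - 1 := (hq.out.dvd_mul.mp h3).resolve_left hqc
  have h6 : k = 1 := by
    by_contra hk
    have := Nat.le_of_dvd (by omega) h4
    omega
  exact (relIndex_eq_one.mp h6).trans inf_le_right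

theorem card_le_mul_of_inf {U X Y : Subgroup G} (hX : X ≤ U) (hY : Y ≤ U) (h1 : Nat.card U ≤ 2 * Nat.card X)
    (h2 : Nat.card U ≤ 2 * Nat.card Y) : Nat.card U ≤ 4 * Nat.card ↥(X ⊓ Y) := by
  have key : ∀ Z : Subgroup G, Z ≤ U → Nat.card U ≤ 2 * Nat.card Z → Z.relIndex U ≤ 2 := fun Z hZ h => by
    have := card_mul_relIndex hZ
    by_contra hk
    have h3 : Nat.card Z * 3 ≤ Nat.card Z * Z.relIndex U := Nat.mul_le_mul_left _ (by omega)
    have : 0 < Nat.card Z := Nat.card_pos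
    omega
  have h3 := relIndex_inf_le (H := X) (K := Y) (L := U)
  have h4 := card_mul_relIndex (inf_le_left.trans hX : X ⊓ Y ≤ U)
  have h5 : (X ⊓ Y).relIndex U ≤ 4 := h3.trans (Nat.mul_le_mul (key X hX h1) (key Y hY h2))
  rw [← h4, mul_comm]
  exact Nat.mul_le_mul_right _ h5

/-- no failure of factorization -/
theorem no_offender (h5 : 5 ≤ q) {V : Subgroup G} [V.Normal] (hV : IsAb 2 V) (f : G →* Q)
    (hf : Function.Surjective f) (hk : f.ker = 𝐂(V)) {F : Subgroup Q} [F.Normal] (hF : IsPGroup q F)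
    (hC : ∀ A : Subgroup Q, IsPGroup 2 A → A ≤ 𝐂(F) → A = ⊥) (A : Subgroup Q) :
    IsAb 2 A → A ≠ ⊥ → Nat.card A * Nat.card ↥(V ⊓ 𝐂(A.comap f)) < Nat.card V := by
  haveI : Fact (Nat.Prime 2) := ⟨Nat.prime_two⟩
  induction A using subgroup_induction with
  | h A ih =>
  intro hA hA0
  by_contra hlt
  push Not at hlt
  have hAe : IsElementaryAbelian 2 A := isElementaryAbelian_iff.mpr hA
  have hA2 : IsPGroup 2 A := isPGroup_of_isElementaryAbelian hAe
  have hV2 : IsPGroup 2 V := isPGroup_of_isElementaryAbelian (isElementaryAbelian_iff.mpr hV)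
  have hq2 : (2 : ℕ) ≠ q := by omega
  obtain ⟨B, hB, hBn⟩ : ∃ B, IsCocyclic B A ∧ ¬ F ⊓ 𝐂(B) ≤ 𝐂(A) := by
    by_contra hcon
    push Not at hcon
    exact hA0 (hC A hA2 (le_centralizer_iff.mp (le_of_cocyclic_centralizers hAe.1 le_normalizer_of_normal
      (coprime_card_of_isPGroup hA2 (not_dvd_card_of_isPGroup hF hq2)) hcon)))
  have hAB := hB.card_le hAe
  have hBA : B < A := lt_of_le_of_ne hB.1 fun e => hBn (e ▸ inf_le_right)
  have hc : Nat.card ↥(V ⊓ 𝐂(B.comap f)) ≤ 2 * Nat.card ↥(V ⊓ 𝐂(A.comap f)) := by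
    by_cases hB0 : B = ⊥
    · rw [hB0, card_bot] at hAB
      exact (card_le_of_le inf_le_left).trans (hlt.trans (Nat.mul_le_mul_right _ (by omega)))
    · have h1 := ih B hBA (hA.mono hB.1) hB0
      have h2 : Nat.card B * Nat.card ↥(V ⊓ 𝐂(B.comap f)) ≤
          Nat.card B * (2 * Nat.card ↥(V ⊓ 𝐂(A.comap f))) := by
        calc _ ≤ Nat.card V := h1.le
          _ ≤ _ := hlt
          _ ≤ 2 * Nat.card B * _ := Nat.mul_le_mul_right _ hAB
          _ = _ := by ring
      exact Nat.le_of_mul_le_mul_left h2 Nat.card_pos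
  obtain ⟨c, hcF, hcA⟩ := SetLike.not_le_iff_exists.mp hBn
  obtain ⟨a, ha, haB⟩ := hB.2
  set r := a * (c * a⁻¹ * c⁻¹) with hr
  have hr1 : r ≠ 1 := fun e => hcA (le_centralizer_iff.mp (haB.trans (sup_le
      (le_centralizer_iff.mp (zpowers_le.mpr hcF.2)) (zpowers_le.mpr ?_))) (mem_zpowers c))
  swap
  · rw [Core.centralizer_zpowers, mem_centralizer_singleton_iff]
    calc a * c = r * (c * a) := by rw [hr]; group
      _ = c * a := by rw [e, one_mul]
  have hrF : r ∈ F := by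
    have : r = (a * c * a⁻¹) * c⁻¹ := by rw [hr]; group
    rw [this]
    exact mul_mem (Normal.conj_mem inferInstance _ hcF.1 a) (inv_mem hcF.1)
  have haC : a ∈ 𝐂(B) := centralizer_le_centralizer hB.1 (hA.1 ha)
  have hrB : r ∈ 𝐂(B) := mul_mem haC (mul_mem (mul_mem hcF.2 (inv_mem haC)) (inv_mem hcF.2))
  obtain ⟨R, hR, hRf⟩ := exists_lift f hf (isPGroup_zpowers_of_mem hF hrF)
  obtain ⟨S, hS, hSf⟩ := exists_lift f hf (hA2.to_le hB.1)
  obtain ⟨a', rfl⟩ := hf a
  obtain ⟨c', rfl⟩ := hf c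
  have hnB : ∀ x : G, f x ∈ 𝐂(B) → x ∈ 𝐍(V ⊓ 𝐂(B.comap f)) := fun x hx => by
    have : zpowers x ≤ 𝐍(B.comap f) := zpowers_le.mpr (mem_normalizer_of_conj_mem fun y hy => by
      rw [mem_comap] at hy ⊢
      rw [map_mul, map_mul, map_inv, ← mem_centralizer_iff.mp hx _ hy, mul_inv_cancel_right]
      exact hy)
    exact le_normalizer_inf le_normalizer_of_normal (le_normalizer_centralizer this) (mem_zpowers x)
  set U := V ⊓ 𝐂(B.comap f)
  set X := V ⊓ 𝐂(A.comap f)
  have hXU : X ≤ U := inf_le_inf_left _ (centralizer_le_centralizer (comap_mono hB.1))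
  have hYU : cj(c', X) ≤ U := map_conj_le_of_le hXU (hnB c' hcF.2)
  have hRc : ∀ x ∈ R, f x ∈ zpowers r := fun x hx => hRf ▸ mem_map_of_mem f hx
  have hRU : R ≤ 𝐍(U) := fun x hx => hnB x (zpowers_le.mpr hrB (hRc x hx))
  have hXY : X ⊓ cj(c', X) ≤ U ⊓ 𝐂(R) := by
    refine le_inf (inf_le_left.trans hXU) fun v hv => ?_
    have h1 : v ∈ V ⊓ 𝐂(zpowers (a' * (c' * a'⁻¹ * c'⁻¹))) := by
      refine mem_inf.mpr ⟨hv.1.1, ?_⟩
      rw [Core.centralizer_zpowers, mem_centralizer_singleton_iff]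
      have e1 : a' * v = v * a' := mem_centralizer_iff.mp hv.1.2 a' ha
      have e2 : a' * (c'⁻¹ * v * c') = (c'⁻¹ * v * c') * a' :=
        mem_centralizer_iff.mp (mem_map_conj.mp hv.2).2 a' ha
      calc v * (a' * (c' * a'⁻¹ * c'⁻¹)) = (v * a') * (c' * a'⁻¹ * c'⁻¹) := by group
        _ = a' * c' * a'⁻¹ * (a' * (c'⁻¹ * v * c')) * a'⁻¹ * c'⁻¹ := by rw [← e1]; group
        _ = _ := by rw [e2]; group
    rw [← cent_comap f hk.le, MonoidHom.map_zpowers] at h1
    refine centralizer_le_centralizer (fun x hx => ?_) h1.2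
    rw [mem_comap]
    simpa [hr] using hRc x hx
  have hUR : U ≤ 𝐂(R) := le_cent_of_four h5 (hV2.to_le inf_le_left) hR hRU
    ((card_le_mul_of_inf hXU hYU hc (by rw [card_map_conj]; exact hc)).trans
      (Nat.mul_le_mul_left _ (card_le_of_le hXY)))
  have hVR : ⁅V, R⁆ ≤ V := commutator_le_left V R
  have hW : ⁅V, R⁆ = ⊥ := by
    by_contra hW
    have hSn : S ≤ 𝐍(⁅V, R⁆) := fun s hs => by
      have h1 : ∀ y ∈ V, ∀ x ∈ R, s * ⁅y, x⁆ * s⁻¹ ∈ ⁅V, R⁆ := fun y hy x hx => by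
        have h2 : f (s * x * s⁻¹ * x⁻¹) = 1 := by
          have : f s ∈ B := hSf ▸ mem_map_of_mem f hs
          rw [map_mul, map_mul, map_mul, map_inv, map_inv,
            mem_centralizer_iff.mp (zpowers_le.mpr hrB (hRc x hx)) _ this]
          group
        have h3 : s * x * s⁻¹ * x⁻¹ ∈ 𝐂(V) := hk ▸ h2
        have h4 : s * y * s⁻¹ ∈ V := Normal.conj_mem inferInstance y hy s
        have h5 := mem_centralizer_iff.mp h3 _ (Normal.conj_mem inferInstance _ (inv_mem h4) x)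
        have : s * ⁅y, x⁆ * s⁻¹ = ⁅s * y * s⁻¹, x⁆ := by
          rw [commutatorElement_def, commutatorElement_def]
          calc _ = s * y * s⁻¹ * ((s * x * s⁻¹ * x⁻¹) * (x * (s * y * s⁻¹)⁻¹ * x⁻¹)) *
                (s * x * s⁻¹ * x⁻¹)⁻¹ := by group
            _ = _ := by rw [← h5]; group
        rw [this]
        exact commutator_mem_commutator h4 hx
      refine mem_normalizer_of_conj_mem fun w hw => ?_
      have : ⁅V, R⁆ ≤ (⁅V, R⁆).comap (MulAut.conj s).toMonoidHom :=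
        commutator_le.mpr fun y hy x hx => h1 y hy x hx
      exact this hw
    refine inf_centralizer_ne_bot hS (hV2.to_le hVR) hSn hW (le_bot_iff.mp ?_)
    rw [← inf_centralizer_inf_commutator_eq_bot (A := R) (V := V) (isElementaryAbelian_iff.mpr hV).1
      le_normalizer_of_normal (coprime_card_of_isPGroup hR (not_dvd_card_of_isPGroup hV2 hq2.symm))]
    refine le_inf (le_trans ?_ hUR) inf_le_left
    have := cent_comap f hk.le S
    rw [hSf] at this
    exact (inf_le_inf_right _ hVR).trans this.ge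
  have h6 : R ≤ f.ker := hk ▸ le_centralizer_iff.mp (commutator_eq_bot_iff_le_centralizer.mp hW)
  have h7 : r ∈ R.map f := hRf ▸ mem_zpowers r
  obtain ⟨x, hx, e⟩ := h7
  exact hr1 (e ▸ h6 hx)

theorem le_bot_of_cent {p : ℕ} [Fact p.Prime] (hs : PSolv p (⊤ : Subgroup Q)) (hO : pCore p Q = ⊥)
    {A : Subgroup Q} (hA : IsPGroup p A) (h : A ≤ 𝐂(pPrimeCore p Q)) : A = ⊥ := by
  set C := 𝐂(pPrimeCore p Q)
  haveI : C.Normal := normal_of_le_normalizer_top (le_normalizer_centralizer le_normalizer_of_normal)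
  obtain ⟨P, hP⟩ := exists_isSyl p (OppPOf p C)
  have h1 : OppOf p C ≤ pPrimeCore p Q := OppOf_top (G := Q) (p := p) ▸
    OppOf_mono_of_normal le_top le_normalizer_of_normal
  have h2 : OppPOf p C ≤ 𝐍(P) := by
    rw [← hP.sup_OppOf]
    exact sup_le le_normalizer (le_normalizer_of_le_centralizer (le_centralizer_iff.mp
      ((hP.le.trans (OppPOf_le C)).trans (centralizer_le_centralizer h1))))
  have h3 : P ≤ pCore p Q := OpOf_top (G := Q) (p := p) ▸ (le_OpOf hP.le h2 hP.isPGroup).trans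
    (OpOf_mono_of_normal le_top (le_normalizer_OppPOf le_normalizer_of_normal))
  have h4 : P = ⊥ := le_bot_iff.mp (hO ▸ h3)
  have h5 := inf_centralizer_le_OppPOf (hs.mono le_top : PSolv p C).LOf_eq_bot hP
  rw [← hP.sup_OppOf, h4, bot_sup_eq] at h5
  have h6 : A ≤ OppOf p C := (le_inf h (le_centralizer_iff.mp bot_le)).trans h5
  exact eq_bot_of_isPGroup_of_not_dvd hA (not_dvd_card_of_le (OppOf_not_dvd C) h6)

theorem fact_two (h5 : 5 ≤ q) (hπ : IsPi {2, q} G) (hs : PSolv 2 (⊤ : Subgroup G))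
    (hC : 𝐂(pCore 2 G) ≤ pCore 2 G) {P : Subgroup G} (hP : IsSyl 2 P ⊤) (g : G) :
    ∃ a ∈ 𝐍(JT 2 P), ∃ c ∈ 𝐂(P ⊓ 𝐂(P)), g = a * c := by
  haveI : Fact (Nat.Prime 2) := ⟨Nat.prime_two⟩
  set Z := P ⊓ 𝐂(P)
  set W := pCore 2 G ⊓ 𝐂(pCore 2 G)
  haveI : W.Normal := normal_of_le_normalizer_top (le_normalizer_inf le_normalizer_of_normal
    (le_normalizer_centralizer le_normalizer_of_normal))
  have h1 : 𝐂(P) ≤ 𝐂(pCore 2 G) := centralizer_le_centralizer (pCore_le_of_isSyl hP)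
  have hZW : Z ≤ W := le_inf (inf_le_right.trans (h1.trans hC)) (inf_le_right.trans h1)
  have hZ : P ≤ 𝐂(Z) := le_centralizer_iff.mp inf_le_right
  set U := normalClosure (Z : Set G) with hU
  have hUW : U ≤ W := normalClosure_le_normal hZW
  have hUU : U ≤ 𝐂(U) := hUW.trans ((center_le_centralizer_center _).trans (centralizer_le_centralizer hUW))
  have hUp : IsPGroup 2 U := (pCore_isPGroup.to_le inf_le_left).to_le hUW
  set V := omegaC 2 U hUU with hV
  have hVU : V ≤ U := fun v hv => hv.1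
  haveI hVn : V.Normal := ⟨fun v hv g => ⟨Normal.conj_mem inferInstance v hv.1 g, by
    rw [conj_pow, hv.2, mul_one, mul_inv_cancel]⟩⟩
  have key : ∀ R : Subgroup G, R.Normal → (∀ x ∈ R, (orderOf x).Coprime 2 → x ∈ 𝐂(V)) →
      R ≤ 𝐂(Z) := fun R hR h =>
    (le_sup_of_forall_coprime (hP.inf_normal le_top le_normalizer_of_normal) (C := 𝐂(U))
      fun x hx hc => mem_centralizer_of_omega hUp hUU (le_normalizer_of_normal (mem_top x)) hc
        fun v hv hvp => mem_centralizer_iff.mp (h x hx hc) v ⟨hv, hvp⟩).trans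
      (sup_le (centralizer_le_centralizer le_normalClosure) (inf_le_left.trans hZ))
  have hVab : IsAb 2 V := ⟨hVU.trans (hUU.trans (centralizer_le_centralizer hVU)), fun v hv => hv.2⟩
  haveI hCn : (𝐂(V)).Normal := normal_of_le_normalizer_top (le_normalizer_centralizer le_normalizer_of_normal)
  have hJ : JT 2 P ≤ 𝐂(V) := by
    refine JT_le_iff.mpr fun A hA => ?_
    by_contra hn
    set f := QuotientGroup.mk' 𝐂(V)
    have hf : Function.Surjective f := QuotientGroup.mk'_surjective _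
    have hk : f.ker = 𝐂(V) := QuotientGroup.ker_mk' _
    have hO : pCore 2 (G ⧸ 𝐂(V)) = ⊥ := by
      have h2 := key ((pCore 2 (G ⧸ 𝐂(V))).comap f) inferInstance fun x hx hc => by
        obtain ⟨k, hk'⟩ := pow_eq_one_of_isPGroup pCore_isPGroup hx
        have h3 : orderOf (f x) = 1 := Nat.eq_one_of_dvd_coprimes (hc.pow_right k) (orderOf_map_dvd f x)
          (orderOf_dvd_of_pow_eq_one hk')
        exact hk ▸ orderOf_eq_one_iff.mp h3
      have h3 : U ≤ 𝐂((pCore 2 (G ⧸ 𝐂(V))).comap f) := by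
        haveI : (𝐂((pCore 2 (G ⧸ 𝐂(V))).comap f)).Normal :=
          normal_of_le_normalizer_top (le_normalizer_centralizer le_normalizer_of_normal)
        exact normalClosure_le_normal (le_centralizer_iff.mp h2)
      have h4 := le_centralizer_iff.mp (hVU.trans h3)
      rw [← map_comap_eq_self_of_surjective hf (pCore 2 _), Subgroup.map_eq_bot_iff]
      exact h4.trans hk.ge
    have hF : IsPGroup q (pPrimeCore 2 (G ⧸ 𝐂(V))) := by
      refine isPi_singleton_iff.mp fun r hr hd => ?_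
      rcases hπ r hr ((hd.trans (card_subgroup_dvd_card _)).trans (card_quotient_dvd_card _)) with e | e
      · exact absurd (e ▸ hd) pPrimeCore_not_dvd
      · exact e
    have h6 := no_offender h5 hVab f hf hk hF
      (fun B hB hBC => le_bot_of_cent (hs.quotient _) hO hB hBC) (A.map f)
      ⟨(map_mono hA.ab.1).trans (map_centralizer_le' f A), by
        rintro _ ⟨a, ha, rfl⟩
        rw [← map_pow, hA.ab.2 a ha, map_one]⟩
      (fun e => hn (hk ▸ (Subgroup.map_eq_bot_iff _).mp e))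
    rw [cent_comap f hk.le] at h6
    have h7 := Glaub.MaxAb.relIndex_le hA hVab
      (((hVU.trans hUW).trans inf_le_left).trans (pCore_le_of_isSyl hP)) (Q := 𝐂(V)) inf_le_right
    have h8 := card_inf_mul_relIndex 𝐂(A) V
    have h9 : Nat.card (A.map f) = (𝐂(V)).relIndex A := (relIndex_ker A f).symm.trans (by rw [hk])
    rw [h9, inf_comm] at h6
    have := Nat.mul_le_mul_left (Nat.card ↥(𝐂(A) ⊓ V)) h7
    rw [h8, mul_comm] at this
    omega
  obtain ⟨l, hl, m, hm, h⟩ := frattini_JT' hP hJ g⁻¹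
  refine ⟨m⁻¹, inv_mem hm, l⁻¹, inv_mem (key _ inferInstance (fun x hx _ => hx) hl), ?_⟩
  rw [← mul_inv_rev, ← h, inv_inv]

theorem fact {p : ℕ} [hp : Fact p.Prime] (hpq : p ≠ q) (h23 : ¬ ((p = 2 ∧ q = 3) ∨ (p = 3 ∧ q = 2)))
    (hπ : IsPi {p, q} G) (hs : PSolv p (⊤ : Subgroup G))
    (hC : 𝐂(pCore p G) ≤ pCore p G) {P : Subgroup G} (hP : IsSyl p P ⊤) (g : G) :
    ∃ a ∈ 𝐍(JT p P), ∃ c ∈ 𝐂(P ⊓ 𝐂(P)), g = a * c := by
  by_cases h2 : p = 2
  · subst h2
    refine fact_two ?_ hπ hs hC hP g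
    have h3 : q ≠ 3 := fun e => h23 (Or.inl ⟨rfl, e⟩)
    have := hq.out.two_le
    have h4 : q ≠ 4 := fun e => by have := hq.out; rw [e] at this; exact absurd this (by decide)
    omega
  have hst := pStable_of_isSec (Cfsg.Agent.S2004.result (G := G) h2 fun Q _ _ h => by
    have hd := ((involves_iff_isSec.mp h).trans (IsSec.subgroup _)).card_dvd
    have ha : (1 : ZMod p) ≠ 0 := one_ne_zero
    have hb : (-1 : ZMod p) ≠ 1 := fun e => by
      have : ((2 : ℕ) : ZMod p) = 0 := by push_cast; linear_combination -e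
      rw [ZMod.natCast_eq_zero_iff] at this
      exact h2 ((Nat.prime_dvd_prime_iff_eq hp.out Nat.prime_two).mp this)
    haveI : Fact (Nat.Prime 2) := ⟨Nat.prime_two⟩
    haveI : Fact (Nat.Prime 3) := ⟨Nat.prime_three⟩
    let u : Matrix.SpecialLinearGroup (Fin 2) (ZMod p) := ⟨!![-1, 0; 0, -1], by simp⟩
    let w : Matrix.SpecialLinearGroup (Fin 2) (ZMod p) := ⟨!![0, -1; 1, -1], by simp⟩
    have e2 : orderOf u = 2 :=
      orderOf_eq_prime (by
        rw [pow_two]; ext i j; rw [Matrix.SpecialLinearGroup.coe_mul]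
        fin_cases i <;> fin_cases j <;> simp [u, Matrix.mul_apply, Fin.sum_univ_two])
        fun h0 => hb (by simpa [u] using congrArg (fun x : Matrix.SpecialLinearGroup (Fin 2) (ZMod p) => x.1 0 0) h0)
    have e3 : orderOf w = 3 :=
      orderOf_eq_prime (by
        rw [pow_three]; ext i j; rw [Matrix.SpecialLinearGroup.coe_mul, Matrix.SpecialLinearGroup.coe_mul]
        fin_cases i <;> fin_cases j <;> simp [w, Matrix.mul_apply, Fin.sum_univ_two])
        fun h0 => ha (by simpa [w] using congrArg (fun x : Matrix.SpecialLinearGroup (Fin 2) (ZMod p) => x.1 1 0) h0)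
    have d2 := hπ 2 Nat.prime_two ((e2 ▸ _root_.orderOf_dvd_natCard u).trans hd)
    have d3 := hπ 3 Nat.prime_three ((e3 ▸ _root_.orderOf_dvd_natCard w).trans hd)
    simp only [Set.mem_insert_iff, Set.mem_singleton_iff] at d2 d3
    omega) IsSec.refl
  exact (nStable_of_pStable hst).factorization_center (n := p) dvd_rfl hC hP g

end Cfsg.Agent.Lib.Autz
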