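/-
Prime divisors of automizers of `p`-subgroups.
-/
import Cfsg.Agent.Lib.Autz.Fact
import Cfsg.Agent.Lib.ZJ.Thompson
import Cfsg.Agent.Lib.Core.Bar

set_option autoImplicit false
set_option linter.unusedSectionVars false

namespace Cfsg.Agent.Lib.Autz

open Subgroup Cfsg.Agent.Lib Cfsg.Agent.Lib.Core Cfsg.Agent.Lib.Glaub Cfsg.Agent.Lib.ZJ
open scoped Cfsg.Agent.Lib.Glaub commutatorElement

universe u

variable {p q : ℕ} [hp : Fact p.Prime] [hq : Fact q.Prime]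

section
variable {G : Type*} [Group G] [Finite G]

theorem exists_not_le {C B : Subgroup G} (h : q ∣ C.relIndex B) :
    ∃ R : Subgroup G, IsPGroup q R ∧ R ≤ B ∧ ¬ R ≤ C := by
  obtain ⟨R, hR⟩ := exists_isSyl q B
  exact ⟨R, hR.isPGroup, hR.le, fun hC => hR.not_dvd_relIndex hC h⟩

theorem dvd_relIndex_of_not_le {C B R : Subgroup G} (hn : B ≤ 𝐍(C)) (hR : IsPGroup q R)
    (hRB : R ≤ B) (h : ¬ R ≤ C) : q ∣ C.relIndex B := by
  by_contra hd
  refine h fun x hx => mem_of_coprime_relIndex hn (hRB hx) ?_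
  obtain ⟨k, hk⟩ := pow_eq_one_of_isPGroup hR hx
  exact Nat.Coprime.coprime_dvd_left (orderOf_dvd_of_pow_eq_one hk)
    ((coprime_iff_not_dvd.mpr hd).symm.pow_left k)

end

theorem exists_pq (hpq : p ≠ q) (G : Type u) [Group G] [Finite G] : PSolv p (⊤ : Subgroup G) →
    q ∣ Nat.card G → ∀ T : Subgroup G, IsSyl p T ⊤ →
      ∃ L : Subgroup G, T ≤ L ∧ IsPi {p, q} L ∧ q ∣ Nat.card L := by
  refine card_induction (P := fun G _ _ => PSolv p (⊤ : Subgroup G) →
    q ∣ Nat.card G → ∀ T : Subgroup G, IsSyl p T ⊤ →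
      ∃ L : Subgroup G, T ≤ L ∧ IsPi {p, q} L ∧ q ∣ Nat.card L) (fun G _ _ ih => ?_) G
  intro hs hd T hT
  have quo : ∀ (N : Subgroup G) [N.Normal], N ≠ ⊥ → ¬ q ∣ Nat.card N →
      ∃ L : Subgroup (G ⧸ N), T ≤ L.comap (QuotientGroup.mk' N) ∧ IsPi {p, q} L ∧ q ∣ Nat.card L ∧
        N.relIndex (L.comap (QuotientGroup.mk' N)) = Nat.card L := by
    intro N _ hN hqN
    have h1 := hT.map (QuotientGroup.mk' N)
    rw [map_top_of_surjective _ (QuotientGroup.mk'_surjective N)] at h1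
    obtain ⟨L, h2, h3, h4⟩ := ih (G ⧸ N) (card_quotient_lt hN) (hs.quotient N) (by
      rw [← N.card_mul_index, N.index_eq_card] at hd
      exact (hq.out.dvd_mul.mp hd).resolve_left hqN) _ h1
    refine ⟨L, map_le_iff_le_comap.mp h2, h3, h4, ?_⟩
    have := relIndex_ker (L.comap (QuotientGroup.mk' N)) (QuotientGroup.mk' N)
    rwa [QuotientGroup.ker_mk', map_comap_eq_self_of_surjective (QuotientGroup.mk'_surjective N)] at this
  by_cases hD : pPrimeCore p G = ⊥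
  · have hO : pCore p G ≠ ⊥ := by
      rw [← OpOf_top]
      refine hs.OpOf_ne_bot (OppOf_top.trans hD) fun e => ?_
      rw [← card_top, e, card_bot] at hd
      exact hq.out.not_dvd_one hd
    obtain ⟨L, h1, h2, h3, h4⟩ := quo _ hO (not_dvd_card_of_isPGroup pCore_isPGroup hpq.symm)
    refine ⟨_, h1, h2.comap _ ?_, h3.trans (h4 ▸ relIndex_dvd_card _ _)⟩
    rw [QuotientGroup.ker_mk']
    exact isPi_of_isPGroup pCore_isPGroup (by simp)
  by_cases hqD : q ∣ Nat.card (pPrimeCore p G)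
  · obtain ⟨R, hR, hTR⟩ := (coprimeAct_of_isPGroup_left hT.isPGroup pPrimeCore_not_dvd
      le_normalizer_of_normal).exists_isSyl q
    exact ⟨T ⊔ R, le_sup_left, (isPi_of_isPGroup hT.isPGroup (by simp)).sup
      (isPi_of_isPGroup hR.isPGroup (by simp)) hTR,
      (dvd_card_of_isPGroup_of_ne_bot hR.isPGroup (hR.ne_bot hqD)).trans (card_dvd_of_le le_sup_right)⟩
  obtain ⟨L, h1, h2, h3, h4⟩ := quo _ hD hqD
  set L' := L.comap (QuotientGroup.mk' (pPrimeCore p G))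
  have hDL : pPrimeCore p G ≤ L' := by
    have := ker_le_comap (QuotientGroup.mk' (pPrimeCore p G)) L
    rwa [QuotientGroup.ker_mk'] at this
  obtain ⟨K, hK, -, -, hKc⟩ := exists_complement hDL le_normalizer_of_normal (by
    rw [h4]
    refine Nat.coprime_of_dvd fun r hr hd1 hd2 => ?_
    rcases h2 r hr hd2 with e | e
    · exact pPrimeCore_not_dvd (e ▸ hd1)
    · exact hqD (e ▸ hd1))
  obtain ⟨S, hS⟩ := exists_isSyl p K
  have h5 : IsSyl p S L' := hS.trans hK fun h => pPrimeCore_not_dvd (G := G) (p := p) (by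
    have e1 := card_mul_relIndex hK
    have e2 := card_mul_relIndex hDL
    rw [hKc, ← e2, mul_comm] at e1
    exact Nat.eq_of_mul_eq_mul_right (Nat.pos_of_ne_zero index_ne_zero_of_finite) e1 ▸ h)
  obtain ⟨g, -, hg⟩ := h5.exists_conj (hT.mono h1 le_top)
  refine ⟨cj(g, K), hg ▸ map_mono hS.le, ?_, ?_⟩
  · exact h2.of_dvd (by rw [card_map_conj, hKc, h4])
  · rwa [card_map_conj, hKc, h4]

section
variable {G : Type*} [Group G] [Finite G]

/-- the two characteristic subgroups -/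
def Wf (b : Bool) (p : ℕ) (T : Subgroup G) : Subgroup G := if b then JT p T else T ⊓ 𝐂(T)

theorem Wf_le (b : Bool) (T : Subgroup G) : Wf b p T ≤ T := by
  cases b
  · exact inf_le_left
  · exact JT_le T

theorem map_Wf (b : Bool) {G' : Type*} [Group G'] {f : G →* G'} {T : Subgroup G}
    (h : f.ker ⊓ T = ⊥) : (Wf b p T).map f = Wf b p (T.map f) := by
  cases b
  · exact map_center_of_inf h
  · exact map_JT_of_inf h

theorem normalizer_le_Wf (b : Bool) (T : Subgroup G) : 𝐍(T) ≤ 𝐍(Wf b p T) := by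
  cases b
  · exact le_normalizer_inf le_rfl (le_normalizer_centralizer le_rfl)
  · exact normalizer_le_normalizer_JT T

theorem Wf_ne_bot (b : Bool) {T : Subgroup G} (hT : IsPGroup p T) (h : T ≠ ⊥) : Wf b p T ≠ ⊥ := by
  cases b
  · exact inf_centralizer_ne_bot hT hT le_normalizer h
  · exact JT_ne_bot dvd_rfl hT h

theorem dvd_Wf (hpq : p ≠ q) (h23 : ¬ ((p = 2 ∧ q = 3) ∨ (p = 3 ∧ q = 2)))
    (hπ : IsPi {p, q} G) (hs : PSolv p (⊤ : Subgroup G)) (hC : 𝐂(pCore p G) ≤ pCore p G)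
    (hd : q ∣ Nat.card G) {T : Subgroup G} (hT : IsSyl p T ⊤) :
    ∃ b, q ∣ Nat.card 𝐍(Wf b p T) := by
  by_contra hn
  push Not at hn
  have key : ∀ b, 𝐍(Wf b p T) = T := fun b => hT.eq_of_le (isPi_singleton_iff.mp fun r hr h =>
    (hπ r hr (h.trans (card_subgroup_dvd_card _))).resolve_right fun e => hn b (e ▸ h))
    (le_normalizer.trans (normalizer_le_Wf b T)) le_top
  have : T = ⊤ := eq_top_iff.mpr fun g _ => by
    obtain ⟨a, ha, c, hc, rfl⟩ := fact hpq h23 hπ hs hC hT g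
    exact mul_mem ((key true).le ha) ((key false).le (centralizer_le_normalizer _ hc))
  refine not_dvd_card_of_isPGroup hT.isPGroup hpq.symm ?_
  rwa [this, card_top]

theorem exists_Wf (hpq : p ≠ q) (h23 : ¬ ((p = 2 ∧ q = 3) ∨ (p = 3 ∧ q = 2)))
    (hs : PSolv p (⊤ : Subgroup G)) (hd : q ∣ Nat.card (G ⧸ pPrimeCore p G))
    {T : Subgroup G} (hT : IsSyl p T ⊤) :
    ∃ b, ∃ R : Subgroup G, IsPGroup q R ∧ R ≤ 𝐍(Wf b p T) ∧ ¬ R ≤ pPrimeCore p G := by
  set f := QuotientGroup.mk' (pPrimeCore p G)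
  have hf : Function.Surjective f := QuotientGroup.mk'_surjective _
  have hk : f.ker = pPrimeCore p G := QuotientGroup.ker_mk' _
  have h1 := hT.map f
  rw [map_top_of_surjective _ hf] at h1
  have hs' := hs.quotient (pPrimeCore p G)
  obtain ⟨L, h2, h3, h4⟩ := exists_pq hpq _ hs' hd _ h1
  have h5 : IsSyl p ((T.map f).subgroupOf L) ⊤ := by
    have := (h1.mono h2 le_top).subgroupOf le_rfl
    rwa [subgroupOf_self] at this
  have hOL : pCore p (G ⧸ pPrimeCore p G) ≤ L := (pCore_le_of_isSyl h1).trans h2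
  have hO : (pCore p (G ⧸ pPrimeCore p G)).subgroupOf L ≤ pCore p L :=
    le_pCore (isPGroup_subgroupOf pCore_isPGroup)
  obtain ⟨b, hb⟩ := dvd_Wf hpq h23 h3 (psolv_top_iff.mpr (hs'.mono le_top)) (by
    refine (centralizer_le_centralizer hO).trans (le_trans ?_ hO)
    rw [← subgroupOf_centralizer_eq hOL]
    exact comap_mono (hs'.centralizer_pCore_le pPrimeCore_quotient)) h4 h5
  have h6 : q ∣ Nat.card 𝐍(Wf b p (T.map f)) := by
    refine hb.trans ?_
    rw [← card_map_subtype, map_subtype_normalizer, map_Wf b (by rw [ker_subtype, bot_inf_eq]),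
      map_subtype_subgroupOf h2]
    exact card_dvd_of_le inf_le_right
  have hTk : ¬ p ∣ Nat.card f.ker := by rw [hk]; exact pPrimeCore_not_dvd
  rw [← map_Wf b (by rw [inf_comm]; exact inf_eq_bot_of_isPGroup_of_not_dvd hT.isPGroup hTk),
    ← (coprimeAct_of_isPGroup_left (hT.isPGroup.to_le (Wf_le b T)) hTk
      le_normalizer_of_normal).map_normalizer f hf, ← relIndex_ker, hk] at h6
  exact ⟨b, exists_not_le h6⟩

/-- all automizers of `p`-subgroups are `p`-solvable -/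
def AS (p : ℕ) (G : Type*) [Group G] : Prop :=
  ∀ H K : Subgroup G, IsPGroup p H → K ≤ 𝐍(H) → ⁅K, K⁆ = K → OupOf p K = K → K ≤ 𝐂(H)

/-- a `q`-group acts nontrivially on `H` -/
def Mv (q : ℕ) (H : Subgroup G) : Prop := ∃ R : Subgroup G, IsPGroup q R ∧ R ≤ 𝐍(H) ∧ ¬ R ≤ 𝐂(H)

theorem AS.subgroup (h : AS p G) (X : Subgroup G) : AS p X := fun H K hH hK h1 h2 =>
  (map_le_centralizer_iff X.subtype_injective).mp (h _ _ (hH.map _)
    ((map_le_normalizer_iff X.subtype_injective).mpr hK) (by rw [← map_commutator, h1])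
    (by rw [← map_OupOf, h2]))

theorem AS.quotient (h : AS p G) {G' : Type*} [Group G'] (f : G →* G') (hf : Function.Surjective f)
    (hk : IsPGroup p f.ker) : AS p G' := by
  intro H L hH hL h1 h2
  obtain ⟨K, -, hK, hmin⟩ := exists_minimal_subgroup
    (P := fun K : Subgroup G => K.map f = L) (H := L.comap f) (map_comap_eq_self_of_surjective hf L)
  have h3 : ⁅K, K⁆ ≤ K := commutator_le_of_le_normalizer_left le_normalizer
  have := h (H.comap f) K (hH.comap_of_ker_isPGroup f hk)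
    (by rw [← comap_normalizer_eq_of_surjective _ hf, ← map_le_iff_le_comap, hK]; exact hL)
    (hmin _ (by rw [map_commutator, hK, h1]) h3) (hmin _ (by rw [map_OupOf, hK, h2]) (OupOf_le K))
  rw [← hK, ← map_comap_eq_self_of_surjective hf H]
  exact (map_mono this).trans (map_centralizer_le' f _)

theorem Mv.map {X : Subgroup G} {H : Subgroup X} (h : Mv q H) : Mv q (H.map X.subtype) := by
  obtain ⟨R, h1, h2, h3⟩ := h
  exact ⟨R.map X.subtype, h1.map _, (map_le_normalizer_iff X.subtype_injective).mpr h2,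
    fun h => h3 ((map_le_centralizer_iff X.subtype_injective).mp h)⟩

theorem local_step (hpq : p ≠ q) (h23 : ¬ ((p = 2 ∧ q = 3) ∨ (p = 3 ∧ q = 2))) (hA : AS p G)
    {H T : Subgroup G} (hH : IsPGroup p H) (hm : Mv q H) (hT : IsSyl p T 𝐍(H))
    (hmax : ∀ S : Subgroup G, IsPGroup p S → Mv q S → T ≤ 𝐍(S) → H ≤ S → S = H) :
    ∃ b, ∃ R : Subgroup G, IsPGroup q R ∧ R ≤ 𝐍(Wf b p T) ∧ R ≤ 𝐍(H) ∧ ¬ R ≤ 𝐂(H) := by
  obtain ⟨R, hR, hRN, hRC⟩ := hm
  have hNC : 𝐍(H) ≤ 𝐍(𝐂(H)) := le_normalizer_centralizer le_rfl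
  have hCN : 𝐂(H) ≤ 𝐍(H) := centralizer_le_normalizer _
  have hHT : H ≤ T := hT.le_of_le_normalizer hH le_normalizer hT.le
  have hd := dvd_relIndex_of_not_le hNC hR hRN hRC
  have hn : 𝐍(H) ≤ 𝐍(H ⊔ 𝐂(H)) := le_normalizer_sup le_rfl hNC
  have hS := hT.inf_normal (sup_le le_normalizer hCN) hn
  have hHS : H ≤ T ⊓ (H ⊔ 𝐂(H)) := le_inf hHT le_sup_left
  have e : T ⊓ (H ⊔ 𝐂(H)) = H := by
    refine hmax _ hS.isPGroup ?_ (le_normalizer_inf le_normalizer (hT.le.trans hn)) hHS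
    have h1 := hS.frattini_sup (sup_le le_normalizer hCN) hn
    have h2 : H ≤ 𝐍(H) ⊓ 𝐍(T ⊓ (H ⊔ 𝐂(H))) := le_inf le_normalizer (hHS.trans le_normalizer)
    set M := 𝐍(H) ⊓ 𝐍(T ⊓ (H ⊔ 𝐂(H)))
    rw [sup_comm H, sup_assoc, sup_eq_right.mpr h2, sup_comm] at h1
    rw [← h1, relIndex_sup_of_le_normalizer (inf_le_left.trans hNC)] at hd
    obtain ⟨R', h3, h4, h5⟩ := exists_not_le hd
    exact ⟨R', h3, h4.trans inf_le_right, fun h => h5 (h.trans (centralizer_le_centralizer hHS))⟩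
  have hZ : IsSyl p (H ⊓ 𝐂(H)) 𝐂(H) := by
    have := hT.inf_normal hCN hNC
    rwa [show T ⊓ 𝐂(H) = H ⊓ 𝐂(H) from le_antisymm (le_inf ((inf_le_inf_left _ le_sup_right).trans e.le)
      inf_le_right) (inf_le_inf_right _ hHT)] at this
  have hZC : 𝐂(H) ≤ 𝐂(H ⊓ 𝐂(H)) := centralizer_le_centralizer inf_le_left
  obtain ⟨D, hD, -, hDs, hDc⟩ := exists_complement hZ.le (le_normalizer_of_le_centralizer hZC)
    (by rw [hZ.card_eq]; exact Nat.Coprime.pow_left _ (coprime_iff_not_dvd.mpr hZ.not_dvd).symm)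
  have hDp : ¬ p ∣ Nat.card D := hDc ▸ hZ.not_dvd
  have hDn : 𝐂(H) ≤ 𝐍(D) := by
    rw [← hDs]
    exact sup_le le_normalizer (le_normalizer_of_le_centralizer (le_centralizer_iff.mp (hD.trans hZC)))
  have hDO : D ≤ OppOf p 𝐍(H) := (le_OppOf hD hDn hDp).trans (OppOf_mono_of_normal hCN hNC)
  have hi : ∃ k, D.relIndex 𝐂(H) = p ^ k := by
    rw [← hDs, sup_comm, relIndex_sup_of_le_normalizer (inf_le_right.trans hDn)]
    obtain ⟨k, hk⟩ := hZ.isPGroup.exists_card_eq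
    obtain ⟨j, -, hj⟩ := (Nat.dvd_prime_pow hp.out).mp (hk ▸ relIndex_dvd_card D _)
    exact ⟨j, hj⟩
  have hs : PSolv p 𝐍(H) := fun K hK h1 h2 => by
    have h3 := hA H K hH hK h1 h2
    have h4 : K ≤ H ⊓ 𝐂(H) := h2 ▸ OupOf_le_iff.mpr fun x hx ⟨k, hk⟩ => zpowers_le.mp
      (hZ.le_of_le_normalizer' (isPGroup_zpowers hk) (zpowers_le.mpr (h3 hx))
        ((zpowers_le.mpr (h3 hx)).trans (le_normalizer_of_le_centralizer hZC)))
    exact psolv_of_isPGroup hZ.isPGroup K h4 h1 h2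
  have hOC : OppOf p 𝐍(H) ≤ 𝐂(H) := le_centralizer_of_inf_eq_bot (OppOf_le _)
    (le_normalizer_OppOf (le_normalizer.trans le_normalizer))
    (by rw [inf_comm]; exact inf_eq_bot_of_isPGroup_of_not_dvd hH (OppOf_not_dvd _))
  have h6 : IsSyl p (T.subgroupOf 𝐍(H)) ⊤ := by
    have := hT.subgroupOf le_rfl
    rwa [subgroupOf_self] at this
  obtain ⟨b, R', h7, h8, h9⟩ := exists_Wf hpq h23 (psolv_top_iff.mpr hs) (by
    rw [← index_eq_card, ← OppOf_subgroupOf]
    exact hd.trans (relIndex_dvd_of_le_left _ hOC)) h6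
  refine ⟨b, R'.map 𝐍(H).subtype, h7.map _, ?_, map_subtype_le _, fun h => h9 ?_⟩
  · have := (map_le_normalizer_iff 𝐍(H).subtype_injective).mpr h8
    rwa [map_Wf b (by rw [ker_subtype, bot_inf_eq]), map_subtype_subgroupOf hT.le] at this
  · rw [← OppOf_subgroupOf, subgroupOf, ← map_le_iff_le_comap]
    by_contra h10
    obtain ⟨k, hk⟩ := hi
    have := dvd_relIndex_of_not_le hDn (h7.map _) h fun h => h10 (h.trans hDO)
    rw [hk] at this
    exact hpq ((Nat.prime_dvd_prime_iff_eq hq.out hp.out).mp (hq.out.dvd_of_dvd_pow this)).symm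

end

theorem main (hpq : p ≠ q) (h23 : ¬ ((p = 2 ∧ q = 3) ∨ (p = 3 ∧ q = 2)))
    (G : Type u) [Group G] [Finite G] : AS p G → ∀ H : Subgroup G, IsPGroup p H → Mv q H →
      ∃ K S : Subgroup G, IsSyl p S ⊤ ∧ K ≤ S ∧ S ≤ 𝐍(K) ∧ Mv q K := by
  refine card_induction (P := fun G _ _ => AS p G → ∀ H : Subgroup G, IsPGroup p H → Mv q H →
      ∃ K S : Subgroup G, IsSyl p S ⊤ ∧ K ≤ S ∧ S ≤ 𝐍(K) ∧ Mv q K) (fun G _ _ ih => ?_) G
  intro hA H₀ hH₀ hm₀
  by_cases hO : pCore p G = ⊥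
  swap
  · by_cases hm : Mv q (pCore p G)
    · obtain ⟨S, hS⟩ := exists_isSyl p (⊤ : Subgroup G)
      exact ⟨_, S, hS, pCore_le_of_isSyl hS, le_normalizer_of_normal, hm⟩
    set f := QuotientGroup.mk' (pCore p G)
    have hf : Function.Surjective f := QuotientGroup.mk'_surjective _
    have hk : IsPGroup p f.ker := by rw [QuotientGroup.ker_mk']; exact pCore_isPGroup
    obtain ⟨R, hR, hRN, hRC⟩ := hm₀
    have hRO : R ≤ 𝐂(pCore p G) := by
      by_contra h
      exact hm ⟨R, hR, le_normalizer_of_normal, h⟩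
    obtain ⟨K, S, h1, h2, h3, R', h4, h5, h6⟩ := ih (G ⧸ pCore p G) (card_quotient_lt hO)
      (hA.quotient f hf hk) (H₀.map f) (hH₀.map f) ⟨R.map f, hR.map f,
        (map_mono hRN).trans (le_normalizer_map f), fun h => hRC (le_centralizer_iff.mp
          ((coprimeAct_of_isPGroup_left hR (not_dvd_card_of_isPGroup hH₀ hpq.symm) hRN).le_centralizer
            ((commutator_le_iff_map_le_centralizer.mpr (le_centralizer_iff.mp h)).trans
              (le_centralizer_iff.mp hRO))))⟩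
    obtain ⟨R'', h7, rfl⟩ := exists_lift f hf h4
    refine ⟨K.comap f, S.comap f, ?_, comap_mono h2, ?_, R'', h7, ?_, fun h => h6 ?_⟩
    · simpa using IsSyl.comap hf hk h1
    · rw [← comap_normalizer_eq_of_surjective _ hf]; exact comap_mono h3
    · rw [← comap_normalizer_eq_of_surjective _ hf, ← map_le_iff_le_comap]; exact h5
    · rw [← map_comap_eq_self_of_surjective hf K]
      exact (map_mono h).trans (map_centralizer_le' f _)
  obtain ⟨T, ⟨hT, H₁, hH₁, hm₁, hTH₁⟩, hTm⟩ := Set.exists_max_image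
    {T : Subgroup G | IsPGroup p T ∧ ∃ H : Subgroup G, IsPGroup p H ∧ Mv q H ∧ T ≤ 𝐍(H)}
    (fun T => Nat.card T) (Set.toFinite _) ⟨⊥, IsPGroup.of_bot, H₀, hH₀, hm₀, bot_le⟩
  obtain ⟨H, -, ⟨hH, hm, hTH⟩, hmax⟩ := exists_maximal_subgroup
    (P := fun H : Subgroup G => IsPGroup p H ∧ Mv q H ∧ T ≤ 𝐍(H)) ⟨hH₁, hm₁, hTH₁⟩
  have hTS : IsSyl p T 𝐍(H) := by
    obtain ⟨S, hS⟩ := exists_isSyl p 𝐍(H)
    exact hS.of_card_le hT hTH (hTm S ⟨hS.isPGroup, H, hH, hm, hS.le⟩)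
  have hHT : H ≤ T := hTS.le_of_le_normalizer hH le_normalizer hTH
  obtain ⟨P, hP, hTP⟩ := exists_isSyl_ge hT le_top
  rcases hTP.eq_or_lt with e | hlt
  · exact ⟨H, T, e ▸ hP, hHT, hTH, hm⟩
  exfalso
  obtain ⟨b, R, h1, h2, h3, h4⟩ := local_step hpq h23 hA hH hm hTS
    fun S a b c d => hmax S ⟨a, b, c⟩ d
  set X := 𝐍(Wf b p T)
  have hTX : 𝐍(T) ≤ X := normalizer_le_Wf b T
  have hHX : H ≤ X := (hHT.trans le_normalizer).trans hTX
  have hX : X ≠ ⊤ := fun e => by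
    haveI := normal_of_le_normalizer_top e.ge
    refine Wf_ne_bot b hT (fun e => h4 ?_) (le_bot_iff.mp (hO ▸ le_pCore (hT.to_le (Wf_le b T))))
    rw [le_bot_iff.mp (hHT.trans e.le)]
    exact le_centralizer_iff.mp bot_le
  obtain ⟨K, S, h5, h6, h7, h8⟩ := ih X (card_lt_of_ne_top hX) (hA.subgroup X) (H.subgroupOf X)
    (isPGroup_subgroupOf hH) ⟨R.subgroupOf X, isPGroup_subgroupOf h1, by
      rw [← map_le_normalizer_iff X.subtype_injective, map_subtype_subgroupOf h2,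
        map_subtype_subgroupOf hHX]
      exact h3, by
      rw [← map_le_centralizer_iff X.subtype_injective, map_subtype_subgroupOf h2,
        map_subtype_subgroupOf hHX]
      exact h4⟩
  have h9 := hTm (S.map X.subtype) ⟨h5.isPGroup.map _, K.map X.subtype, (h5.isPGroup.to_le h6).map _,
    h8.map, (map_le_normalizer_iff X.subtype_injective).mpr h7⟩
  have h10 := h5.card_le (isPGroup_subgroupOf (hP.isPGroup.to_le (inf_le_left : P ⊓ 𝐍(T) ≤ P))) le_top
  have h11 := card_lt_of_lt (lt_inf_normalizer_of_isPGroup hP.isPGroup hlt)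
  simp only [card_map_subtype] at h9
  rw [card_subgroupOf (inf_le_right.trans hTX)] at h10
  omega

end Cfsg.Agent.Lib.Autz
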